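import Cfsg.Agent.SLThree.Forms
set_option autoImplicit false

/-!
`SL₃(3)`: every non-identity element is a product of two conjugates of a fixed element of order 8.
-/

namespace CfsgLib.SLThree

open Matrix

/-- An element of order 8 of `SL₃(3)`. -/
def x8 : SpecialLinearGroup (Fin 3) (ZMod 3) := ⟨!![2, 0, 0; 0, 0, 1; 0, 1, 1], by decide +kernel⟩

theorem x8_pow : x8 ^ 8 = 1 := by decide +kernel

/-- The matrix identity saying that `M` is a product of two conjugates of `x8`. -/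
def Wit (M : Matrix (Fin 3) (Fin 3) (ZMod 3)) (u v : Matrix (Fin 3) (Fin 3) (ZMod 3)) : Prop :=
  u.det = 1 ∧ v.det = 1 ∧ M * v = u * x8.1 * adjugate u * v * x8.1

theorem exists_of_wit {M u v : Matrix (Fin 3) (Fin 3) (ZMod 3)} (h : Wit M u v) :
    ∃ U V : SpecialLinearGroup (Fin 3) (ZMod 3), M = ((U * x8 * U⁻¹) * (V * x8 * V⁻¹)).1 := by
  obtain ⟨hu, hv, h⟩ : u.det = 1 ∧ v.det = 1 ∧ M * v = u * x8.1 * adjugate u * v * x8.1 := h
  refine ⟨⟨u, hu⟩, ⟨v, hv⟩, ?_⟩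
  calc M = M * v * adjugate v := by rw [Matrix.mul_assoc, Matrix.mul_adjugate, hv, one_smul, Matrix.mul_one]
    _ = u * x8.1 * adjugate u * (v * x8.1 * adjugate v) := by rw [h]; simp only [Matrix.mul_assoc]
    _ = _ := rfl

theorem wit_comp : ∀ q r : ZMod 3,
    ∃ U V : SpecialLinearGroup (Fin 3) (ZMod 3), comp3 1 q r = ((U * x8 * U⁻¹) * (V * x8 * V⁻¹)).1 := by
  have h00 := exists_of_wit (M := comp3 1 0 0) (u := !![0, 0, 1; 0, 1, 1; 2, 2, 1]) (v := !![1, 1, 0; 1, 1, 1; 2, 1, 2]) (by unfold Wit; decide +kernel)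
  have h01 := exists_of_wit (M := comp3 1 0 1) (u := !![0, 0, 1; 0, 1, 1; 2, 0, 1]) (v := !![1, 1, 0; 1, 1, 1; 2, 1, 2]) (by unfold Wit; decide +kernel)
  have h02 := exists_of_wit (M := comp3 1 0 2) (u := !![0, 0, 1; 0, 1, 1; 2, 1, 1]) (v := !![1, 1, 0; 1, 1, 1; 2, 1, 2]) (by unfold Wit; decide +kernel)
  have h10 := exists_of_wit (M := comp3 1 1 0) (u := !![0, 0, 1; 0, 1, 0; 2, 0, 1]) (v := !![1, 1, 0; 1, 1, 2; 1, 2, 1]) (by unfold Wit; decide +kernel)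
  have h11 := exists_of_wit (M := comp3 1 1 1) (u := !![0, 0, 1; 0, 1, 0; 2, 1, 1]) (v := !![1, 1, 0; 1, 1, 2; 1, 2, 1]) (by unfold Wit; decide +kernel)
  have h12 := exists_of_wit (M := comp3 1 1 2) (u := !![0, 0, 1; 0, 1, 0; 2, 2, 1]) (v := !![1, 1, 0; 1, 1, 2; 1, 2, 1]) (by unfold Wit; decide +kernel)
  have h20 := exists_of_wit (M := comp3 1 2 0) (u := !![0, 0, 1; 0, 1, 0; 2, 2, 0]) (v := !![1, 1, 0; 0, 0, 1; 2, 1, 2]) (by unfold Wit; decide +kernel)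
  have h21 := exists_of_wit (M := comp3 1 2 1) (u := !![0, 0, 1; 0, 1, 0; 2, 0, 0]) (v := !![1, 1, 0; 0, 0, 1; 2, 1, 2]) (by unfold Wit; decide +kernel)
  have h22 := exists_of_wit (M := comp3 1 2 2) (u := !![0, 0, 1; 0, 1, 0; 2, 1, 0]) (v := !![1, 1, 0; 0, 0, 1; 2, 1, 2]) (by unfold Wit; decide +kernel)
  intro q r
  fin_cases q <;> fin_cases r <;> assumption

theorem wit_rk1 : ∀ r τ : ZMod 3, (r + τ) * r * r = 1 →
    ∃ U V : SpecialLinearGroup (Fin 3) (ZMod 3), rk1 r τ = ((U * x8 * U⁻¹) * (V * x8 * V⁻¹)).1 := by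
  have h10 := exists_of_wit (M := rk1 1 0) (u := !![0, 0, 1; 0, 1, 2; 2, 0, 0]) (v := !![0, 0, 1; 0, 2, 0; 1, 0, 0]) (by unfold Wit; decide +kernel)
  have h22 := exists_of_wit (M := rk1 2 2) (u := !![0, 0, 1; 1, 0, 1; 0, 1, 0]) (v := !![1, 0, 1; 0, 0, 1; 1, 2, 2]) (by unfold Wit; decide +kernel)
  intro r τ h
  fin_cases r <;> fin_cases τ <;> first | assumption | exact absurd h (by decide)

theorem eq_mul_conj_x8 {F : Type*} [Field F] [Fintype F] (hF : Fintype.card F = 3) :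
    ∃ x : SpecialLinearGroup (Fin 3) F, x ^ 8 = 1 ∧ ∀ g : SpecialLinearGroup (Fin 3) F,
      (∀ s : F, g.1 ≠ s • (1 : Matrix (Fin 3) (Fin 3) F)) →
      ∃ u v : SpecialLinearGroup (Fin 3) F, g = (u * x * u⁻¹) * (v * x * v⁻¹) := by
  haveI : Fact (Nat.Prime 3) := ⟨Nat.prime_three⟩
  haveI : CharP F 3 := charP_of_card_eq_prime hF
  set e : ZMod 3 →+* F := ZMod.castHom dvd_rfl F
  have hsurj : Function.Surjective e := ((Fintype.bijective_iff_injective_and_card e).mpr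
    ⟨e.injective, by rw [ZMod.card, hF]⟩).2
  set φ := SpecialLinearGroup.map (n := Fin 3) e with hφ
  refine ⟨φ x8, by rw [← map_pow, x8_pow, map_one], fun g hg => ?_⟩
  have hφc : ∀ Z : SpecialLinearGroup (Fin 3) (ZMod 3), (φ Z).1 = Z.1.map e := fun Z => rfl
  suffices ∃ M : SpecialLinearGroup (Fin 3) (ZMod 3), Sim g.1 (M.1.map e) ∧
      ∃ U V : SpecialLinearGroup (Fin 3) (ZMod 3), M = (U * x8 * U⁻¹) * (V * x8 * V⁻¹) by
    obtain ⟨M, ⟨Q, hQ, hgQ⟩, U, V, rfl⟩ := this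
    let Q' : SpecialLinearGroup (Fin 3) F := ⟨Q.det • Q, by
      rw [Matrix.det_smul, Fintype.card_fin]
      have h2 := FiniteField.pow_card_sub_one_eq_one Q.det hQ.ne_zero
      rw [hF] at h2
      linear_combination (Q.det ^ 2 + 1) * h2⟩
    have hg' : g * Q' = Q' * φ ((U * x8 * U⁻¹) * (V * x8 * V⁻¹)) := by
      apply Subtype.ext
      change g.1 * (Q.det • Q) = (Q.det • Q) * _
      rw [Matrix.mul_smul, hgQ, Matrix.smul_mul, hφc]
    refine ⟨Q' * φ U, Q' * φ V, ?_⟩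
    rw [eq_mul_inv_iff_mul_eq.mpr hg', map_mul, map_mul, map_mul, map_mul, map_mul, map_inv, map_inv]
    group
  rcases normal_form hg with ⟨p, q, r, h⟩ | ⟨r, τ, h⟩
  · have hp : p = 1 := by rw [← det_comp3 p q r, ← h.det_eq]; exact g.2
    subst hp
    obtain ⟨q, rfl⟩ := hsurj q
    obtain ⟨r, rfl⟩ := hsurj r
    obtain ⟨U, V, hM⟩ := wit_comp q r
    refine ⟨_, ?_, U, V, rfl⟩
    rw [← hM]
    convert h using 1
    ext i j
    fin_cases i <;> fin_cases j <;> simp [comp3]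
  · have hd : (r + τ) * r * r = 1 := by rw [← det_rk1 r τ, ← h.det_eq]; exact g.2
    obtain ⟨r, rfl⟩ := hsurj r
    obtain ⟨τ, rfl⟩ := hsurj τ
    rw [← map_add, ← map_mul, ← map_mul, ← map_one e] at hd
    obtain ⟨U, V, hM⟩ := wit_rk1 r τ (e.injective hd)
    refine ⟨_, ?_, U, V, rfl⟩
    rw [← hM]
    convert h using 1
    ext i j
    fin_cases i <;> fin_cases j <;> simp [rk1]

end CfsgLib.SLThree
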